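import Mathlib

set_option autoImplicit false

namespace Cfsg.Agent.Perm1

/-- A map that agrees with an affine map on every triple of points is affine (characteristic not 2). -/
theorem affine_of_triples {K V : Type*} [Field K] [AddCommGroup V] [Module K V] (h2 : (2 : K) ≠ 0)
    (σ : V → V)
    (h : ∀ x y z : V, ∃ (A : V →ₗ[K] V) (b : V), σ x = A x + b ∧ σ y = A y + b ∧ σ z = A z + b) :
    ∃ L : V →ₗ[K] V, ∀ x, σ x = L x + σ 0 := by
  have hsmul : ∀ (c : K) (x : V), σ (c • x) - σ 0 = c • (σ x - σ 0) := by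
    intro c x
    obtain ⟨A, b, h0, h1, h2⟩ := h 0 x (c • x)
    rw [h0, h1, h2]; simp
  have hadd : ∀ x y : V, σ (x + y) - σ 0 = (σ x - σ 0) + (σ y - σ 0) := by
    intro x y
    obtain ⟨A, b, h0, h1, h3⟩ := h x y ((2 : K)⁻¹ • (x + y))
    have h4 := hsmul (2 : K)⁻¹ (x + y)
    have h5 : σ (x + y) - σ 0 = (2 : K) • (σ ((2 : K)⁻¹ • (x + y)) - σ 0) := by
      rw [h4, smul_smul, mul_inv_cancel₀ h2, one_smul]
    rw [h5, h3, h0, h1, map_smul, smul_sub, smul_add, smul_smul, mul_inv_cancel₀ h2, one_smul, map_add,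
      two_smul, two_smul]
    abel
  exact ⟨⟨⟨fun x => σ x - σ 0, hadd⟩, hsmul⟩, fun x => by simp⟩

theorem affine_equiv_of_triples {K V : Type*} [Field K] [AddCommGroup V] [Module K V] (h2 : (2 : K) ≠ 0)
    (σ : Equiv.Perm V)
    (h : ∀ x y z : V, ∃ (A : V →ₗ[K] V) (b : V), σ x = A x + b ∧ σ y = A y + b ∧ σ z = A z + b) :
    ∃ L : V ≃ₗ[K] V, ∀ x, σ x = L x + σ 0 := by
  obtain ⟨L, hL⟩ := affine_of_triples h2 σ h
  have hb : Function.Bijective L := by
    have : (L : V → V) = (Equiv.subRight (σ 0)) ∘ σ := by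
      ext x; simp [hL x]
    rw [this]
    exact (Equiv.subRight (σ 0)).bijective.comp σ.bijective
  exact ⟨LinearEquiv.ofBijective L hb, hL⟩

theorem two_ne_zero_zmod (p : ℕ) [Fact p.Prime] (hp : p ≠ 2) : (2 : ZMod p) ≠ 0 := by
  intro h
  have h' : ((2 : ℕ) : ZMod p) = 0 := by exact_mod_cast h
  rw [ZMod.natCast_eq_zero_iff] at h'
  exact hp ((Nat.prime_dvd_prime_iff_eq Fact.out Nat.prime_two).mp h')

/-- A linear equivalence of given determinant fixing two given vectors, in dimension at least 3. -/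
theorem exists_det_fixing {K V : Type*} [Field K] [AddCommGroup V] [Module K V] [FiniteDimensional K V]
    (hd : 3 ≤ Module.finrank K V) (u w : V) (c : K) (hc : c ≠ 0) :
    ∃ D : V ≃ₗ[K] V, LinearMap.det (D : V →ₗ[K] V) = c ∧ D u = u ∧ D w = w := by
  classical
  have h1 : Submodule.span K ({u, w} : Set V) < ⊤ := by
    apply lt_top_iff_ne_top.mpr
    intro h
    have h2 := finrank_span_le_card (R := K) ({u, w} : Set V)
    rw [h, finrank_top] at h2
    have h3 : ({u, w} : Set V).toFinset.card ≤ 2 := by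
      rw [Set.toFinset_insert, Set.toFinset_singleton]
      exact Finset.card_le_two
    omega
  obtain ⟨e, he⟩ : ∃ e : V, e ∉ Submodule.span K ({u, w} : Set V) := by
    by_contra hcon
    push Not at hcon
    exact h1.ne (eq_top_iff.mpr (fun x _ => hcon x))
  obtain ⟨f, hf1, hf2⟩ := Submodule.exists_dual_map_eq_bot_of_notMem he inferInstance
  have hfz : ∀ x ∈ Submodule.span K ({u, w} : Set V), f x = 0 := by
    intro x hx
    have : f x ∈ Submodule.map f (Submodule.span K ({u, w} : Set V)) := Submodule.mem_map_of_mem hx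
    rw [hf2] at this
    exact (Submodule.mem_bot K).mp this
  have hval : 1 + f (((c - 1) * (f e)⁻¹) • e) = c := by
    rw [map_smul, smul_eq_mul, mul_assoc, inv_mul_cancel₀ hf1]; ring
  refine ⟨LinearEquiv.dilatransvection (f := f) (v := ((c - 1) * (f e)⁻¹) • e)
    (by rw [hval]; exact hc.isUnit), ?_, ?_, ?_⟩
  · rw [LinearEquiv.dilatransvection.coe_toLinearMap, LinearMap.transvection.det, hval]
  · rw [LinearEquiv.dilatransvection.apply, hfz u (Submodule.subset_span (by simp))]; simp
  · rw [LinearEquiv.dilatransvection.apply, hfz w (Submodule.subset_span (by simp))]; simp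

/-- Two linearly independent finite families are related by a linear equivalence. -/
theorem exists_equiv_of_linearIndependent {K V ι : Type*} [Field K] [AddCommGroup V] [Module K V]
    [Finite ι] (u w : ι → V) (hu : LinearIndependent K u) (hw : LinearIndependent K w) :
    ∃ A : V ≃ₗ[K] V, ∀ i, A (u i) = w i := by
  have : FiniteDimensional K (Submodule.span K (Set.range u)) :=
    FiniteDimensional.span_of_finite K (Set.finite_range _)
  let f := hu.linearCombinationEquiv.symm ≪≫ₗ hw.linearCombinationEquiv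
  obtain ⟨g, hg⟩ := Submodule.exists_linearEquiv_restrict_eq f
  refine ⟨g, fun i => ?_⟩
  have q1 : hu.linearCombinationEquiv (Finsupp.single i 1) = u i := by simp
  have q2 : hw.linearCombinationEquiv (Finsupp.single i 1) = w i := by simp
  rw [← q1, ← hg, ← q2]
  simp [f]

end Cfsg.Agent.Perm1
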