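import Mathlib

set_option autoImplicit false

namespace Cfsg.Agent.Perm1

open Polynomial

theorem exists_power_sum_ne_zero {K : Type*} [Field K] (U : Finset K) (h0 : (0 : K) ∉ U) (hne : U.Nonempty) :
    ∃ r, 1 ≤ r ∧ r ≤ U.card ∧ ∑ u ∈ U, u ^ r ≠ 0 := by
  classical
  by_contra hcon
  push Not at hcon
  obtain ⟨u0, hu0⟩ := hne
  let q : K[X] := X * ∏ v ∈ U.erase u0, (X - C v)
  have hdeg : q.natDegree < U.card + 1 := by
    have h1 : q.natDegree ≤ 1 + (U.erase u0).card := by
      refine natDegree_mul_le.trans (Nat.add_le_add natDegree_X_le ?_)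
      rw [natDegree_prod_of_monic _ _ (fun v _ => monic_X_sub_C v)]
      simp
    rw [Finset.card_erase_of_mem hu0] at h1
    have := Finset.card_pos.mpr ⟨u0, hu0⟩
    omega
  have h1 : ∑ u ∈ U, q.eval u = 0 := by
    simp_rw [eval_eq_sum_range' hdeg]
    rw [Finset.sum_comm]
    apply Finset.sum_eq_zero
    intro k hk
    rw [← Finset.mul_sum]
    rcases Nat.eq_zero_or_pos k with rfl | hk0
    · simp [q]
    · rw [hcon k hk0 (by simpa [Nat.lt_succ_iff] using hk), mul_zero]
  rw [Finset.sum_eq_single u0] at h1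
  · simp only [q, eval_mul, eval_X, eval_prod, eval_sub, eval_C, mul_eq_zero, Finset.prod_eq_zero_iff] at h1
    rcases h1 with h1 | ⟨v, hv, h1⟩
    · exact h0 (h1 ▸ hu0)
    · exact Finset.ne_of_mem_erase hv (sub_eq_zero.mp h1).symm
  · intro v hv hne
    simp only [q, eval_mul, eval_X, eval_prod, eval_sub, eval_C, mul_eq_zero, Finset.prod_eq_zero_iff]
    exact Or.inr ⟨v, Finset.mem_erase.mpr ⟨hne, hv⟩, sub_self v⟩
  · intro h; exact absurd hu0 h

theorem image_diff_eq {A : Type*} [AddCommGroup A] [DecidableEq A] (U : Finset A) (π : Equiv.Perm A)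
    (h : ∀ i j, i - j ∈ U → π i - π j ∈ U) (j : A) : U.image (fun u => π (j + u) - π j) = U := by
  apply Finset.eq_of_subset_of_card_le
  · intro x hx
    obtain ⟨u, hu, rfl⟩ := Finset.mem_image.mp hx
    exact h _ _ (by simpa using hu)
  · rw [Finset.card_image_of_injective]
    intro x y hxy
    simpa using hxy

theorem affine_of_preserves_diff_aux (p : ℕ) [hp : Fact p.Prime] (U : Finset (ZMod p)) (h0 : (0 : ZMod p) ∉ U)
    (hne : U.Nonempty) (hU : 2 * U.card < p) (π : Equiv.Perm (ZMod p))
    (h : ∀ i j, i - j ∈ U → π i - π j ∈ U) : ∃ a b : ZMod p, ∀ i, π i = a * i + b := by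
  classical
  let f : (ZMod p)[X] := Lagrange.interpolate Finset.univ id π
  have hf : ∀ i, f.eval i = π i := fun i =>
    Lagrange.eval_interpolate_at_node (s := Finset.univ) (v := id) π (Function.injective_id.injOn)
      (Finset.mem_univ i)
  have hf0 : f ≠ 0 := by
    intro h1
    have := π.injective ((hf 0).symm.trans (by rw [h1, ← hf 1, h1]; simp) : π 0 = π 1)
    exact zero_ne_one this
  have hdeg : f.natDegree < p := by
    have := Lagrange.degree_interpolate_lt (s := Finset.univ) (v := id) π (Function.injective_id.injOn)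
    rw [Finset.card_univ, ZMod.card] at this
    exact (natDegree_lt_iff_degree_lt hf0).mpr this
  by_cases hn : f.natDegree ≤ 1
  · refine ⟨f.coeff 1, f.coeff 0, fun i => ?_⟩
    rw [← hf, eval_eq_sum_range' (n := 2) (by omega)]
    simp [Finset.sum_range_succ, add_comm]
  exfalso
  push Not at hn
  set n := f.natDegree with hn'
  set w := (p - 1) / n with hw
  have hw1 : 1 ≤ w := Nat.div_pos (by omega) (by omega)
  have hN1 : w * n ≤ p - 1 := Nat.div_mul_le_self _ _
  have hN2 : p ≤ 2 * (w * n) := by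
    have h1 : p - 1 < (w + 1) * n := by
      rw [hw, mul_comm]; exact Nat.lt_mul_div_succ _ (by omega)
    have h2 : 1 * n ≤ w * n := Nat.mul_le_mul_right _ hw1
    rw [add_mul] at h1
    omega
  have hg : (f ^ w).natDegree = w * n := natDegree_pow _ _
  have hid : ∑ u ∈ U, taylor u (f ^ w) = ∑ u ∈ U, (f + C u) ^ w := by
    apply eq_of_natDegree_lt_card_of_eval_eq _ _ (f := id) Function.injective_id
    · intro i
      simp only [id, eval_finsetSum, taylor_eval, eval_pow, eval_add, eval_C, hf]
      conv_rhs => rw [← image_diff_eq U π h i]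
      rw [Finset.sum_image (fun x _ y _ hxy => by simpa using hxy)]
      simp
    · rw [ZMod.card]
      have hp1 := hp.out.one_lt
      apply max_lt
      · refine lt_of_le_of_lt (natDegree_sum_le_of_forall_le _ _ (n := w * n) (fun u _ => ?_)) (by omega)
        rw [natDegree_taylor, hg]
      · refine lt_of_le_of_lt (natDegree_sum_le_of_forall_le _ _ (n := w * n) (fun u _ => ?_)) (by omega)
        rw [natDegree_pow, natDegree_add_C]
  have hex := exists_power_sum_ne_zero U h0 hne
  have hex' : ∃ r, 1 ≤ r ∧ ∑ u ∈ U, u ^ r ≠ 0 := by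
    obtain ⟨r, h1, -, h2⟩ := hex; exact ⟨r, h1, h2⟩
  set r := Nat.find hex' with hr
  obtain ⟨hr1, hr2⟩ : 1 ≤ r ∧ ∑ u ∈ U, u ^ r ≠ 0 := Nat.find_spec hex'
  have hr3 : ∀ k, 1 ≤ k → k < r → ∑ u ∈ U, u ^ k = 0 := by
    intro k hk1 hk2
    by_contra hne
    exact Nat.find_min hex' hk2 ⟨hk1, hne⟩
  have hr4 : r ≤ U.card := by
    obtain ⟨s, h1, h2, h3⟩ := hex
    exact (Nat.find_min' hex' ⟨h1, h3⟩).trans h2
  obtain ⟨j, hj⟩ : ∃ j, w * n = r + j := ⟨w * n - r, by omega⟩
  have hc := congrArg (fun q => coeff q j) hid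
  simp only [finsetSum_coeff, taylor_coeff] at hc
  have hL : ∑ u ∈ U, eval u (hasseDeriv j (f ^ w)) =
      (f ^ w).coeff j * U.card + ((r + j).choose j : ZMod p) * (f ^ w).coeff (r + j) * ∑ u ∈ U, u ^ r := by
    have hD : (hasseDeriv j (f ^ w)).natDegree < r + 1 := by
      have := natDegree_hasseDeriv_le (f ^ w) j
      omega
    simp_rw [eval_eq_sum_range' hD]
    rw [Finset.sum_comm, Finset.sum_range_succ, ← Finset.mul_sum, hasseDeriv_coeff,
      Finset.sum_eq_single 0]
    · simp [hasseDeriv_coeff, mul_comm]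
    · intro k hk hk0
      rw [← Finset.mul_sum, hr3 k (by omega) (by simpa using hk), mul_zero]
    · intro h; exact absurd (Finset.mem_range.mpr (by omega)) h
  have hR : ∑ u ∈ U, ((f + C u) ^ w).coeff j = (f ^ w).coeff j * U.card := by
    simp_rw [add_pow, finsetSum_coeff, ← C_pow, ← C_eq_natCast, coeff_mul_C]
    rw [Finset.sum_comm, Finset.sum_range_succ, Finset.sum_eq_zero]
    · simp [mul_comm]
    · intro m hm
      have hm' : m < w := by simpa using hm
      rw [← Finset.sum_mul, ← Finset.mul_sum]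
      by_cases hmr : w - m < r
      · rw [hr3 _ (by omega) hmr]; simp
      · have : (f ^ m).coeff j = 0 := by
          apply coeff_eq_zero_of_natDegree_lt
          rw [natDegree_pow, ← hn']
          have h1 : (m + r) * n ≤ w * n := Nat.mul_le_mul_right _ (by omega)
          have h2 : r * 2 ≤ r * n := Nat.mul_le_mul_left _ hn
          rw [add_mul] at h1
          omega
        rw [this]; simp
  rw [hL, hR, add_eq_left, mul_eq_zero, mul_eq_zero] at hc
  rcases hc with (hc | hc) | hc
  · rw [ZMod.natCast_eq_zero_iff] at hc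
    have h1 : p ∣ (r + j).factorial := by
      rw [← Nat.choose_mul_factorial_mul_factorial (Nat.le_add_left j r), mul_assoc]
      exact hc.mul_right _
    rw [hp.out.dvd_factorial] at h1
    omega
  · rw [← hj, ← hg, coeff_natDegree, leadingCoeff_eq_zero] at hc
    exact pow_ne_zero _ hf0 hc
  · exact hr2 hc

/-- P. Mueller's proposition: a permutation of the prime field preserving a proper difference set
is affine. -/
theorem affine_of_preserves_diff (p : ℕ) [hp : Fact p.Prime] (U : Set (ZMod p)) (h0 : (0 : ZMod p) ∉ U)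
    (hne : U.Nonempty) (hU : ∃ v, v ≠ 0 ∧ v ∉ U) (π : Equiv.Perm (ZMod p))
    (h : ∀ i j, i - j ∈ U → π i - π j ∈ U) : ∃ a b : ZMod p, a ≠ 0 ∧ ∀ i, π i = a * i + b := by
  classical
  suffices ∃ a b : ZMod p, ∀ i, π i = a * i + b by
    obtain ⟨a, b, hab⟩ := this
    refine ⟨a, b, ?_, hab⟩
    rintro rfl
    exact zero_ne_one (π.injective (by rw [hab, hab]; simp) : (0 : ZMod p) = 1)
  lift U to Finset (ZMod p) using Set.toFinite U
  simp only [Finset.mem_coe] at h0 hU h
  by_cases hc : 2 * U.card < p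
  · exact affine_of_preserves_diff_aux p U h0 (by simpa using hne) hc π h
  · have hsub : U ⊆ Finset.univ.erase 0 := fun u hu => by
      simp only [Finset.mem_erase, Finset.mem_univ, and_true]
      rintro rfl; exact h0 hu
    apply affine_of_preserves_diff_aux p (Finset.univ.erase 0 \ U) (by simp) ?_ ?_ π
    · intro i j hij
      simp only [Finset.mem_sdiff, Finset.mem_erase, Finset.mem_univ, and_true, ne_eq, sub_eq_zero] at hij ⊢
      refine ⟨fun h1 => hij.1 (π.injective h1), fun h1 => hij.2 ?_⟩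
      rw [← image_diff_eq U π h j, Finset.mem_image] at h1
      obtain ⟨u, hu, h2⟩ := h1
      rw [sub_left_inj] at h2
      rw [← π.injective h2]; simpa using hu
    · obtain ⟨v, hv1, hv2⟩ := hU
      exact ⟨v, by simp [hv1, hv2]⟩
    · rw [Finset.card_sdiff_of_subset hsub, Finset.card_erase_of_mem (Finset.mem_univ _), Finset.card_univ,
        ZMod.card]
      have := hp.out.one_lt
      omega

end Cfsg.Agent.Perm1
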