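import Cfsg.Agent.Perm1.PrimeOrderPerm

set_option autoImplicit false

namespace Cfsg.Agent.Perm1

open Equiv Equiv.Perm

theorem div_le_div_add_div_iff {n k r : ℕ} (hr : 0 < r) (hk : k ≤ n) :
    n / r ≤ k / r + (n - k) / r ↔ k % r ≤ n % r := by
  obtain ⟨l, rfl⟩ := Nat.exists_eq_add_of_le hk
  rw [Nat.add_sub_cancel_left, Nat.add_div hr]
  have h1 := Nat.mod_lt k hr
  have h2 := Nat.mod_lt l hr
  split_ifs with h
  · rw [Nat.add_mod, Nat.mod_eq_sub_mod h, Nat.mod_eq_of_lt (a := k % r + l % r - r) (by omega)]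
    omega
  · rw [Nat.add_mod, Nat.mod_eq_of_lt (a := k % r + l % r) (by omega)]
    omega

/-- If the last `r`-adic digit of `k` exceeds that of the degree, there is a permutation of order `r`
fixing no `k`-subset. -/
theorem forall_exists_invariant_subset_iff (α : Type*) [Fintype α] [DecidableEq α] {r k : ℕ} (hr : r.Prime)
    (hrn : r ≤ Fintype.card α) (hk : k ≤ Fintype.card α) :
    (∀ σ : Perm α, orderOf σ = r → ∃ s : Finset α, s.card = k ∧ ∀ x, σ x ∈ s ↔ x ∈ s) ↔
      k % r ≤ Fintype.card α % r := by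
  rw [← div_le_div_add_div_iff hr.pos hk]
  constructor
  · intro h
    obtain ⟨σ, h1, h2⟩ := exists_perm_pow_eq_one α hr (Fintype.card α / r) (Nat.div_mul_le_self _ _)
    have h3 : orderOf σ = r := orderOf_eq_of_pow_eq_one hr h1 (by
      rw [h2]; exact (Nat.mul_pos (Nat.div_pos hrn hr.pos) hr.pos).ne')
    exact (exists_invariant_subset_iff hr h1 h2 hk).mp (h σ h3)
  · intro h σ hσ
    have h1 : σ ^ r = 1 := by rw [← hσ, pow_orderOf_eq_one]
    obtain ⟨c, hc⟩ := dvd_card_support hr h1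
    rw [mul_comm] at hc
    apply (exists_invariant_subset_iff hr h1 hc hk).mpr
    refine le_trans ?_ h
    rw [Nat.le_div_iff_mul_le hr.pos, ← hc]
    exact Finset.card_le_univ _

theorem prime_le_of_dvd_choose {n k r : ℕ} (hr : r.Prime) (hk : k ≤ n) (h : r ∣ n.choose k) : r ≤ n := by
  apply (hr.dvd_factorial).mp
  rw [← Nat.choose_mul_factorial_mul_factorial hk, mul_assoc]
  exact h.mul_right _

/-- One step of Lucas' theorem. -/
theorem dvd_choose_div_of_mod_le {n k r : ℕ} (hr : r.Prime) (h : r ∣ n.choose k) (hm : k % r ≤ n % r) :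
    r ∣ (n / r).choose (k / r) := by
  have := Fact.mk hr
  have h1 := Choose.choose_modEq_choose_mod_mul_choose_div_nat (n := n) (k := k) (p := r)
  have h2 := (h1.dvd_iff (dvd_refl r)).mp h
  rcases (Nat.Prime.dvd_mul hr).mp h2 with h3 | h3
  · have := prime_le_of_dvd_choose hr hm h3
    have := Nat.mod_lt n hr.pos
    omega
  · exact h3

theorem le_of_dvd_choose_of_mod_le {n k r : ℕ} (hr : r.Prime) (h : r ∣ n.choose k) (hm : k % r ≤ n % r) :
    r ≤ k := by
  have h1 := dvd_choose_div_of_mod_le hr h hm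
  by_contra hlt
  rw [Nat.div_eq_of_lt (by omega : k < r), Nat.choose_zero_right, Nat.dvd_one] at h1
  exact hr.one_lt.ne' h1

end Cfsg.Agent.Perm1
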