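import Mathlib

/-! The Sylvester-Schur theorem: `n.choose k` has a prime divisor `> k` when `2k ≤ n` (proof of Erdős). -/

namespace Cfsg.Agent.Perm1

open Nat Finset

/-- every `n` in `[89, b)` has a prime in `(15n/16, n]` or in `(n - 48, n]`. -/
def Cov (b : ℕ) : Prop := ∀ n, 89 ≤ n → n < b → ∃ p, p.Prime ∧ p ≤ n ∧ (15 * n < 16 * p ∨ n < p + 48)

theorem Cov.step {p : ℕ} (h : Cov p) (hp : p.Prime) (b : ℕ) (hb : 15 * b ≤ 16 * p ∨ b ≤ p + 48) :
    Cov b := by
  intro n h1 h2
  rcases lt_or_ge n p with h3 | h3
  · exact h n h1 h3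
  · exact ⟨p, hp, h3, by omega⟩

theorem cov_big : Cov 267679 := by
  have h : Cov 89 := fun n h1 h2 => absurd h2 (by omega)
  replace h := h.step (by norm_num) 137 (by norm_num)
  replace h := h.step (by norm_num) 181 (by norm_num)
  replace h := h.step (by norm_num) 229 (by norm_num)
  replace h := h.step (by norm_num) 277 (by norm_num)
  replace h := h.step (by norm_num) 317 (by norm_num)
  replace h := h.step (by norm_num) 359 (by norm_num)
  replace h := h.step (by norm_num) 401 (by norm_num)
  replace h := h.step (by norm_num) 449 (by norm_num)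
  replace h := h.step (by norm_num) 491 (by norm_num)
  replace h := h.step (by norm_num) 523 (by norm_num)
  replace h := h.step (by norm_num) 571 (by norm_num)
  replace h := h.step (by norm_num) 619 (by norm_num)
  replace h := h.step (by norm_num) 661 (by norm_num)
  replace h := h.step (by norm_num) 709 (by norm_num)
  replace h := h.step (by norm_num) 757 (by norm_num)
  replace h := h.step (by norm_num) 797 (by norm_num)
  replace h := h.step (by norm_num) 839 (by norm_num)
  replace h := h.step (by norm_num) 887 (by norm_num)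
  replace h := h.step (by norm_num) 941 (by norm_num)
  replace h := h.step (by norm_num) 997 (by norm_num)
  replace h := h.step (by norm_num) 1063 (by norm_num)
  replace h := h.step (by norm_num) 1129 (by norm_num)
  replace h := h.step (by norm_num) 1201 (by norm_num)
  replace h := h.step (by norm_num) 1279 (by norm_num)
  replace h := h.step (by norm_num) 1361 (by norm_num)
  replace h := h.step (by norm_num) 1451 (by norm_num)
  replace h := h.step (by norm_num) 1543 (by norm_num)
  replace h := h.step (by norm_num) 1637 (by norm_num)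
  replace h := h.step (by norm_num) 1741 (by norm_num)
  replace h := h.step (by norm_num) 1847 (by norm_num)
  replace h := h.step (by norm_num) 1951 (by norm_num)
  replace h := h.step (by norm_num) 2081 (by norm_num)
  replace h := h.step (by norm_num) 2213 (by norm_num)
  replace h := h.step (by norm_num) 2357 (by norm_num)
  replace h := h.step (by norm_num) 2503 (by norm_num)
  replace h := h.step (by norm_num) 2663 (by norm_num)
  replace h := h.step (by norm_num) 2837 (by norm_num)
  replace h := h.step (by norm_num) 3023 (by norm_num)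
  replace h := h.step (by norm_num) 3221 (by norm_num)
  replace h := h.step (by norm_num) 3433 (by norm_num)
  replace h := h.step (by norm_num) 3659 (by norm_num)
  replace h := h.step (by norm_num) 3889 (by norm_num)
  replace h := h.step (by norm_num) 4139 (by norm_num)
  replace h := h.step (by norm_num) 4409 (by norm_num)
  replace h := h.step (by norm_num) 4691 (by norm_num)
  replace h := h.step (by norm_num) 5003 (by norm_num)
  replace h := h.step (by norm_num) 5333 (by norm_num)
  replace h := h.step (by norm_num) 5683 (by norm_num)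
  replace h := h.step (by norm_num) 6053 (by norm_num)
  replace h := h.step (by norm_num) 6451 (by norm_num)
  replace h := h.step (by norm_num) 6871 (by norm_num)
  replace h := h.step (by norm_num) 7321 (by norm_num)
  replace h := h.step (by norm_num) 7793 (by norm_num)
  replace h := h.step (by norm_num) 8311 (by norm_num)
  replace h := h.step (by norm_num) 8863 (by norm_num)
  replace h := h.step (by norm_num) 9439 (by norm_num)
  replace h := h.step (by norm_num) 10067 (by norm_num)
  replace h := h.step (by norm_num) 10733 (by norm_num)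
  replace h := h.step (by norm_num) 11447 (by norm_num)
  replace h := h.step (by norm_num) 12203 (by norm_num)
  replace h := h.step (by norm_num) 13009 (by norm_num)
  replace h := h.step (by norm_num) 13873 (by norm_num)
  replace h := h.step (by norm_num) 14797 (by norm_num)
  replace h := h.step (by norm_num) 15773 (by norm_num)
  replace h := h.step (by norm_num) 16823 (by norm_num)
  replace h := h.step (by norm_num) 17939 (by norm_num)
  replace h := h.step (by norm_num) 19121 (by norm_num)
  replace h := h.step (by norm_num) 20393 (by norm_num)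
  replace h := h.step (by norm_num) 21751 (by norm_num)
  replace h := h.step (by norm_num) 23201 (by norm_num)
  replace h := h.step (by norm_num) 24733 (by norm_num)
  replace h := h.step (by norm_num) 26371 (by norm_num)
  replace h := h.step (by norm_num) 28123 (by norm_num)
  replace h := h.step (by norm_num) 29989 (by norm_num)
  replace h := h.step (by norm_num) 31981 (by norm_num)
  replace h := h.step (by norm_num) 34061 (by norm_num)
  replace h := h.step (by norm_num) 36319 (by norm_num)
  replace h := h.step (by norm_num) 38737 (by norm_num)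
  replace h := h.step (by norm_num) 41299 (by norm_num)
  replace h := h.step (by norm_num) 44041 (by norm_num)
  replace h := h.step (by norm_num) 46957 (by norm_num)
  replace h := h.step (by norm_num) 50087 (by norm_num)
  replace h := h.step (by norm_num) 53419 (by norm_num)
  replace h := h.step (by norm_num) 56963 (by norm_num)
  replace h := h.step (by norm_num) 60757 (by norm_num)
  replace h := h.step (by norm_num) 64793 (by norm_num)
  replace h := h.step (by norm_num) 69109 (by norm_num)
  replace h := h.step (by norm_num) 73709 (by norm_num)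
  replace h := h.step (by norm_num) 78607 (by norm_num)
  replace h := h.step (by norm_num) 83843 (by norm_num)
  replace h := h.step (by norm_num) 89431 (by norm_num)
  replace h := h.step (by norm_num) 95393 (by norm_num)
  replace h := h.step (by norm_num) 101749 (by norm_num)
  replace h := h.step (by norm_num) 108529 (by norm_num)
  replace h := h.step (by norm_num) 115763 (by norm_num)
  replace h := h.step (by norm_num) 123479 (by norm_num)
  replace h := h.step (by norm_num) 131707 (by norm_num)
  replace h := h.step (by norm_num) 140477 (by norm_num)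
  replace h := h.step (by norm_num) 149839 (by norm_num)
  replace h := h.step (by norm_num) 159811 (by norm_num)
  replace h := h.step (by norm_num) 170447 (by norm_num)
  replace h := h.step (by norm_num) 181789 (by norm_num)
  replace h := h.step (by norm_num) 193891 (by norm_num)
  replace h := h.step (by norm_num) 206813 (by norm_num)
  replace h := h.step (by norm_num) 220589 (by norm_num)
  replace h := h.step (by norm_num) 235289 (by norm_num)
  replace h := h.step (by norm_num) 250969 (by norm_num)
  replace h := h.step (by norm_num) 267679 (by norm_num)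
  exact h

theorem primeCounting_le_third (x : ℕ) : Nat.primeCounting x ≤ x / 3 + 3 := by
  rcases lt_or_ge x 6 with h | h
  · have : Nat.primeCounting x ≤ Nat.primeCounting 6 := Nat.monotone_primeCounting h.le
    have h6 : Nat.primeCounting 6 = 3 := by decide +kernel
    omega
  · obtain ⟨n, rfl⟩ := Nat.exists_eq_add_of_le h
    have := Nat.primeCounting_add_le (a := 6) (k := 6) (by norm_num) le_rfl n
    have h6 : Nat.primeCounting 6 = 3 := by decide +kernel
    have h7 : Nat.totient 6 = 2 := by decide +kernel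
    rw [h6, h7] at this
    omega

theorem three_mul_primeCounting_le {k : ℕ} (hk : 48 ≤ k) : 3 * Nat.primeCounting k ≤ k := by
  rcases lt_or_ge k 90 with h | h
  · have : ∀ k < 90, 48 ≤ k → 3 * Nat.primeCounting k ≤ k := by decide +kernel
    exact this k h hk
  · obtain ⟨n, rfl⟩ := Nat.exists_eq_add_of_le h
    have := Nat.primeCounting_add_le (a := 6) (k := 90) (by norm_num) (by norm_num) n
    have h6 : Nat.primeCounting 90 = 24 := by decide +kernel
    have h7 : Nat.totient 6 = 2 := by decide +kernel
    rw [h6, h7] at this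
    omega

theorem card_filter_prime_range (x : ℕ) : #{p ∈ range (x + 1) | p.Prime} = Nat.primeCounting x := by
  rw [Nat.primeCounting, Nat.primeCounting', Nat.count_eq_card_filter_range]

theorem small_pow_lt : ∀ k < 48, 1 ≤ k → k ^ k < 300 ^ (k - Nat.primeCounting k) := by decide +kernel

theorem small_not_dvd : ∀ k < 48, ∀ n < 300, 1 ≤ k → 2 * k ≤ n → ∃ i < k, ¬ (n - i ∣ (k !) ^ 9) := by
  decide +kernel

section
variable {n k : ℕ}

theorem choose_eq_prod (hkn : k ≤ n) (m : ℕ)
    (h : ∀ p, p.Prime → (n.choose k).factorization p ≠ 0 → p ≤ m) :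
    n.choose k = ∏ p ∈ {p ∈ range (m + 1) | p.Prime}, p ^ (n.choose k).factorization p := by
  have h0 : n.choose k ≠ 0 := (Nat.choose_pos hkn).ne'
  conv_lhs => rw [← Nat.prod_factorization_pow_eq_self h0]
  rw [Finsupp.prod]
  apply Finset.prod_subset
  · intro p hp
    have hp' := Finsupp.mem_support_iff.mp hp
    have hpp : p.Prime := by
      by_contra hh
      exact hp' (Nat.factorization_eq_zero_of_not_prime _ hh)
    simp only [mem_filter, mem_range]
    exact ⟨Nat.lt_succ_of_le (h p hpp hp'), hpp⟩
  · intro p _ hp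
    rw [Finsupp.notMem_support_iff.mp hp, pow_zero]

theorem choose_le_pow_pi (hkn : k ≤ n) (hn : 0 < n) (m : ℕ)
    (h : ∀ p, p.Prime → (n.choose k).factorization p ≠ 0 → p ≤ m) :
    n.choose k ≤ n ^ Nat.primeCounting m := by
  rw [choose_eq_prod hkn m h, ← card_filter_prime_range, ← Finset.prod_const]
  exact Finset.prod_le_prod' fun p _ => Nat.pow_factorization_choose_le hn

theorem choose_le_pow_mul (hkn : k ≤ n) (hn : 0 < n) (m : ℕ)
    (h : ∀ p, p.Prime → (n.choose k).factorization p ≠ 0 → p ≤ m) :
    n.choose k ≤ n ^ (sqrt n / 3 + 3) * 4 ^ m := by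
  rw [choose_eq_prod hkn m h, ← Finset.prod_filter_mul_prod_filter_not _ (· ≤ sqrt n)]
  apply mul_le_mul'
  · refine (Finset.prod_le_prod' fun p _ => Nat.pow_factorization_choose_le hn).trans ?_
    rw [Finset.prod_const]
    refine pow_right_mono₀ hn (le_trans ?_ (primeCounting_le_third _))
    rw [← card_filter_prime_range]
    refine Finset.card_le_card fun x hx => ?_
    simp only [mem_filter, mem_range] at hx ⊢
    exact ⟨Nat.lt_succ_of_le hx.2, hx.1.2⟩
  · refine le_trans ?_ (primorial_le_four_pow m)
    refine (Finset.prod_le_prod' fun p hp => (?_ : _ ≤ p)).trans ?_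
    · obtain ⟨h1, h2⟩ := Finset.mem_filter.1 hp
      refine (pow_right_mono₀ (Finset.mem_filter.1 h1).2.one_lt.le ?_).trans (pow_one p).le
      exact Nat.factorization_choose_le_one (sqrt_lt'.mp <| not_le.1 h2)
    refine Finset.prod_le_prod_of_subset_of_one_le' (Finset.filter_subset _ _) ?_
    exact fun p hp _ => (Finset.mem_filter.1 hp).2.one_lt.le

theorem descFactorial_mul_pow_le {a b : ℕ} (hab : a ≤ b) (j : ℕ) :
    a.descFactorial j * b ^ j ≤ b.descFactorial j * a ^ j := by
  induction j with
  | zero => simp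
  | succ j ih =>
    rw [Nat.descFactorial_succ, Nat.descFactorial_succ, pow_succ, pow_succ]
    have h1 : (a - j) * b ≤ (b - j) * a := by
      rw [Nat.sub_mul, Nat.sub_mul, mul_comm b a]
      exact Nat.sub_le_sub_left (Nat.mul_le_mul_left j hab) _
    calc (a - j) * a.descFactorial j * (b ^ j * b) = (a.descFactorial j * b ^ j) * ((a - j) * b) := by ring
      _ ≤ (b.descFactorial j * a ^ j) * ((b - j) * a) := Nat.mul_le_mul ih h1
      _ = _ := by ring

theorem choose_mul_pow_le {a b : ℕ} (hab : a ≤ b) (j : ℕ) :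
    a.choose j * b ^ j ≤ b.choose j * a ^ j := by
  have := descFactorial_mul_pow_le hab j
  rw [Nat.descFactorial_eq_factorial_mul_choose, Nat.descFactorial_eq_factorial_mul_choose, mul_assoc,
    mul_assoc] at this
  exact Nat.le_of_mul_le_mul_left this (Nat.factorial_pos j)

/-- `(2n)^k ≤ 2k * C(n,k) * k^k`. -/
theorem two_mul_pow_le (hk : 0 < k) (h : 2 * k ≤ n) : (2 * n) ^ k ≤ 2 * k * n.choose k * k ^ k := by
  have h1 := choose_mul_pow_le h k
  have h2 := Nat.four_pow_le_two_mul_self_mul_centralBinom k hk
  rw [Nat.centralBinom_eq_two_mul_choose] at h2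
  have h3 : 2 ^ k * (2 * n) ^ k ≤ 2 ^ k * (2 * k * n.choose k * k ^ k) := by
    calc 2 ^ k * (2 * n) ^ k = 4 ^ k * n ^ k := by
          rw [mul_pow, ← mul_assoc, ← mul_pow, show 2 * 2 = 4 from rfl]
      _ ≤ (2 * k * (2 * k).choose k) * n ^ k := Nat.mul_le_mul_right _ h2
      _ = 2 * k * ((2 * k).choose k * n ^ k) := by ring
      _ ≤ 2 * k * (n.choose k * (2 * k) ^ k) := Nat.mul_le_mul_left _ h1
      _ = _ := by rw [mul_pow]; ring
  exact Nat.le_of_mul_le_mul_left h3 (by positivity)

theorem pow_le_of_ratio (hk : 0 < k) (h : 2 * k ≤ n) {c : ℕ} (hc : c * k ≤ 2 * n) :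
    c ^ k ≤ n * n.choose k := by
  have h1 := two_mul_pow_le hk h
  have h2 : c ^ k * k ^ k ≤ n * n.choose k * k ^ k := by
    calc c ^ k * k ^ k = (c * k) ^ k := (mul_pow _ _ _).symm
      _ ≤ (2 * n) ^ k := Nat.pow_le_pow_left hc _
      _ ≤ 2 * k * n.choose k * k ^ k := h1
      _ ≤ n * n.choose k * k ^ k := by gcongr
  exact Nat.le_of_mul_le_mul_right h2 (by positivity)

theorem sq_le_two_pow {t : ℕ} (ht : 21 ≤ t) : (24 * t + 24) ^ 2 ≤ 2 ^ t := by
  induction t, ht using Nat.le_induction with
  | base => norm_num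
  | succ t ht ih =>
    rw [pow_succ 2 t]
    nlinarith

/-- for large `n`, `n^(√n/3+4) < 2^(n/64)`. -/
theorem pow_lt_two_pow (hn : 262144 ≤ n) : n ^ (sqrt n / 3 + 4) < 2 ^ (n / 64) := by
  have h1 : sqrt n * sqrt n ≤ n := Nat.sqrt_le n
  have h2 : n < (sqrt n + 1) * (sqrt n + 1) := Nat.lt_succ_sqrt n
  have h3 : 512 ≤ sqrt n := by
    rw [Nat.le_sqrt]; omega
  generalize sqrt n = s at *
  have h4 : n < 2 ^ (s / 24) := by
    have h6 := sq_le_two_pow (t := s / 24) (by omega)
    have h5 : s + 1 ≤ 24 * (s / 24) + 24 := by omega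
    calc n < (s + 1) * (s + 1) := h2
      _ ≤ (24 * (s / 24) + 24) * (24 * (s / 24) + 24) := Nat.mul_le_mul h5 h5
      _ = (24 * (s / 24) + 24) ^ 2 := by ring
      _ ≤ _ := h6
  calc n ^ (s / 3 + 4) < (2 ^ (s / 24)) ^ (s / 3 + 4) := Nat.pow_lt_pow_left h4 (by omega)
    _ = 2 ^ (s / 24 * (s / 3 + 4)) := by rw [← pow_mul]
    _ ≤ 2 ^ (n / 64) := by
      apply Nat.pow_le_pow_right (by norm_num)
      rw [Nat.le_div_iff_mul_le (by norm_num)]
      have h5 : 24 * (s / 24) ≤ s := Nat.mul_div_le s 24
      have h6 : 3 * (s / 3) ≤ s := Nat.mul_div_le s 3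
      generalize s / 24 = a at *
      generalize s / 3 = b at *
      have h7 : (24 * a) * (3 * b) ≤ s * s := Nat.mul_le_mul h5 h6
      have h8 : 512 * s ≤ s * s := Nat.mul_le_mul_right s h3
      have h9 : a * (b + 4) * 64 = 64 * (a * b) + 256 * a := by ring
      have h10 : (24 * a) * (3 * b) = 72 * (a * b) := by ring
      omega

theorem not_pow_le (h48 : 48 ≤ k) (h1 : n ^ 2 ≤ k ^ 3) : ¬ 8 ^ k ≤ n ^ (sqrt n / 3 + 4) := by
  intro h3
  have hk : 0 < k := by omega
  have hss : sqrt n * sqrt n ≤ n := Nat.sqrt_le n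
  generalize sqrt n = s at *
  have h4 : sqrt (sqrt k) * sqrt (sqrt k) ≤ sqrt k := Nat.sqrt_le _
  have h5 : sqrt k * sqrt k ≤ k := Nat.sqrt_le _
  have h6 : sqrt k < (sqrt (sqrt k) + 1) * (sqrt (sqrt k) + 1) := Nat.lt_succ_sqrt _
  have h7 : k < (sqrt k + 1) * (sqrt k + 1) := Nat.lt_succ_sqrt _
  generalize sqrt (sqrt k) = j at *
  have h8 : j ^ 4 ≤ k := by
    calc j ^ 4 = (j * j) * (j * j) := by ring
      _ ≤ sqrt k * sqrt k := Nat.mul_le_mul h4 h4
      _ ≤ k := h5
  have h9 : k < (j + 1) ^ 4 := by
    calc k < (sqrt k + 1) * (sqrt k + 1) := h7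
      _ ≤ ((j + 1) * (j + 1)) * ((j + 1) * (j + 1)) := Nat.mul_le_mul h6 h6
      _ = _ := by ring
  have h10 : k < 2 ^ (4 * j) := by
    have : j + 1 ≤ 2 ^ j := Nat.lt_two_pow_self
    calc k < (j + 1) ^ 4 := h9
      _ ≤ (2 ^ j) ^ 4 := Nat.pow_le_pow_left this 4
      _ = _ := by rw [← pow_mul, mul_comm]
  have h11 : s * j ≤ k := by
    have : (s * j) ^ 4 ≤ k ^ 4 := by
      calc (s * j) ^ 4 = (s * s) ^ 2 * j ^ 4 := by ring
        _ ≤ n ^ 2 * k := Nat.mul_le_mul (Nat.pow_le_pow_left hss 2) h8
        _ ≤ k ^ 3 * k := Nat.mul_le_mul_right _ h1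
        _ = _ := by ring
    exact (Nat.pow_le_pow_iff_left (by norm_num)).mp this
  have h12 : 24 * j ≤ k := by
    rcases le_or_gt j 2 with h13 | h13
    · omega
    · have : 3 ^ 3 ≤ j ^ 3 := Nat.pow_le_pow_left h13 3
      calc 24 * j ≤ j ^ 3 * j := Nat.mul_le_mul_right _ (by omega)
        _ = j ^ 4 := by ring
        _ ≤ k := h8
  have h13 : 2 ^ (6 * k) < 2 ^ (4 * j * (s + 12)) := by
    calc 2 ^ (6 * k) = (8 ^ k) ^ 2 := by
          rw [show (8 : ℕ) = 2 ^ 3 by norm_num, ← pow_mul, ← pow_mul]; ring_nf
      _ ≤ (n ^ (s / 3 + 4)) ^ 2 := Nat.pow_le_pow_left h3 2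
      _ = (n ^ 2) ^ (s / 3 + 4) := by rw [← pow_mul, ← pow_mul, mul_comm]
      _ ≤ (k ^ 3) ^ (s / 3 + 4) := Nat.pow_le_pow_left h1 _
      _ = k ^ (3 * (s / 3 + 4)) := by rw [← pow_mul]
      _ ≤ k ^ (s + 12) := Nat.pow_le_pow_right hk (by omega)
      _ < (2 ^ (4 * j)) ^ (s + 12) := Nat.pow_lt_pow_left h10 (by omega)
      _ = _ := by rw [← pow_mul]
  have h14 := (Nat.pow_lt_pow_iff_right (by norm_num : 1 < 2)).mp h13
  have h15 : 4 * j * (s + 12) = 4 * (s * j) + 48 * j := by ring
  omega

end

/-- The Sylvester-Schur theorem. -/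
theorem exists_prime_dvd_choose {n k : ℕ} (hk : 0 < k) (h : 2 * k ≤ n) :
    ∃ p, p.Prime ∧ k < p ∧ p ∣ n.choose k := by
  by_contra hcon
  push Not at hcon
  have hkn : k ≤ n := by omega
  have hn : 0 < n := by omega
  have hle : ∀ p, p.Prime → (n.choose k).factorization p ≠ 0 → p ≤ k := by
    intro p hp h0
    by_contra hh
    exact hcon p hp (by omega) (Nat.dvd_of_factorization_pos h0)
  -- no prime `> k` divides `n - i`
  have hno : ∀ i < k, ∀ p, p.Prime → p ∣ n - i → p ≤ k := by
    intro i hi p hp hd
    by_contra hh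
    have h1 : n - i ∣ n.descFactorial k := by
      rw [Nat.descFactorial_eq_prod_range]
      exact Finset.dvd_prod_of_mem _ (Finset.mem_range.mpr hi)
    have h2 := hd.trans h1
    rw [Nat.descFactorial_eq_factorial_mul_choose] at h2
    rcases (Nat.Prime.dvd_mul hp).mp h2 with h3 | h3
    · exact hh ((hp.dvd_factorial).mp h3)
    · exact hcon p hp (by omega) h3
  have hA : n ^ (k - Nat.primeCounting k) ≤ k ^ k := by
    have h1 := choose_mul_pow_le hkn k
    rw [Nat.choose_self, one_mul] at h1
    have h2 := choose_le_pow_pi hkn hn k hle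
    rcases le_or_gt k (Nat.primeCounting k) with h3 | h3
    · rw [Nat.sub_eq_zero_of_le h3, pow_zero]; exact pow_pos hk _
    · have h4 : n ^ Nat.primeCounting k * n ^ (k - Nat.primeCounting k) ≤ n ^ Nat.primeCounting k * k ^ k := by
        rw [← pow_add, Nat.add_sub_cancel' h3.le]
        exact h1.trans (Nat.mul_le_mul_right _ h2)
      exact Nat.le_of_mul_le_mul_left h4 (by positivity)
  rcases lt_or_ge k 48 with h48 | h48
  · have h2 : n < 300 := by
      by_contra hh
      have h3 := Nat.pow_le_pow_left (not_lt.mp hh) (k - Nat.primeCounting k)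
      exact absurd (h3.trans hA) (not_le.mpr (small_pow_lt k h48 hk))
    obtain ⟨i, hi, hd⟩ := small_not_dvd k h48 n h2 hk h
    apply hd
    have h0 : n - i ≠ 0 := by omega
    rw [← Nat.factorization_prime_le_iff_dvd h0 (by positivity)]
    intro p hp
    rw [Nat.factorization_pow, Finsupp.smul_apply, smul_eq_mul]
    rcases Nat.eq_zero_or_pos ((n - i).factorization p) with h4 | h4
    · omega
    have h5 := hno i hi p hp (Nat.dvd_of_factorization_pos h4.ne')
    have h6 : 0 < (k !).factorization p :=
      hp.factorization_pos_of_dvd (Nat.factorial_ne_zero k) ((hp.dvd_factorial).mpr h5)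
    have h7 : p ^ (n - i).factorization p ≤ n - i := Nat.le_of_dvd (by omega) (Nat.ordProj_dvd _ _)
    have h8 : (n - i).factorization p < 9 := by
      by_contra hh
      have : 2 ^ 9 ≤ p ^ (n - i).factorization p :=
        (Nat.pow_le_pow_left hp.two_le 9).trans (Nat.pow_le_pow_right hp.pos (not_lt.mp hh))
      omega
    omega
  have hU := choose_le_pow_mul hkn hn k hle
  have key : ∀ a b c : ℕ, 4 ^ a * b ≤ c → c ≤ n * n.choose k → n.choose k ≤ n ^ (sqrt n / 3 + 3) * 4 ^ a →
      b ≤ n ^ (sqrt n / 3 + 4) := by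
    intro a b c h1 h2 h3
    have : 4 ^ a * b ≤ 4 ^ a * n ^ (sqrt n / 3 + 4) := by
      calc 4 ^ a * b ≤ c := h1
        _ ≤ n * n.choose k := h2
        _ ≤ n * (n ^ (sqrt n / 3 + 3) * 4 ^ a) := Nat.mul_le_mul_left _ h3
        _ = _ := by ring
    exact Nat.le_of_mul_le_mul_left this (by positivity)
  rcases le_or_gt (16 * k) n with h16 | h16
  · -- `n ≥ 16 k`
    have h1 : n ^ 2 ≤ k ^ 3 := by
      have h2 := three_mul_primeCounting_le h48
      have h3 : (n ^ 2) ^ k ≤ (k ^ 3) ^ k := by
        calc (n ^ 2) ^ k = n ^ (2 * k) := by rw [← pow_mul]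
          _ ≤ n ^ ((k - Nat.primeCounting k) * 3) := Nat.pow_le_pow_right hn (by omega)
          _ = (n ^ (k - Nat.primeCounting k)) ^ 3 := by rw [pow_mul]
          _ ≤ (k ^ k) ^ 3 := Nat.pow_le_pow_left hA 3
          _ = _ := by rw [← pow_mul, ← pow_mul, mul_comm]
      exact (Nat.pow_le_pow_iff_left hk.ne').mp h3
    have h2 := pow_le_of_ratio hk h (c := 32) (by omega)
    exact not_pow_le h48 h1 (key k _ _ (by rw [← mul_pow, show 4 * 8 = 32 from rfl]) h2 hU)
  rcases lt_or_ge n 262144 with hN | hN
  · obtain ⟨p, hp, h1, h2⟩ := cov_big n (by omega) (by omega)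
    have := hno (n - p) (by omega) p hp (by rw [Nat.sub_sub_self h1])
    omega
  have hbig := pow_lt_two_pow hN
  have hfin : ¬ 2 ^ (k / 4) ≤ n ^ (sqrt n / 3 + 4) := by
    intro hh
    have := (Nat.pow_lt_pow_iff_right (by norm_num : 1 < 2)).mp (lt_of_le_of_lt hh hbig)
    omega
  apply hfin
  rcases le_or_gt (5 * k) (2 * n) with h5 | h5
  · have h2 := pow_le_of_ratio hk h (c := 5) (by omega)
    have h3 : 4 ^ k * 2 ^ (k / 4) ≤ 5 ^ k := by
      have h4 : k = 4 * (k / 4) + k % 4 := (Nat.div_add_mod k 4).symm
      generalize k / 4 = a at *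
      generalize k % 4 = b at *
      rw [h4, pow_add, pow_add, pow_mul, pow_mul, mul_right_comm, ← mul_pow]
      exact Nat.mul_le_mul (Nat.pow_le_pow_left (by norm_num) _) (Nat.pow_le_pow_left (by norm_num) _)
    exact key k _ _ h3 h2 hU
  · have hU' := choose_le_pow_mul hkn hn (n / 3) (by
      intro p hp h0
      have h1 := hle p hp h0
      by_contra hh
      have h2 : p ≠ 2 := by omega
      exact h0 (Nat.factorization_choose_of_lt_three_mul h2 h1 (by omega) (by omega)))
    have h2 := pow_le_of_ratio hk h (c := 4) (by omega)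
    have h3 : 4 ^ (n / 3) * 2 ^ (k / 4) ≤ 4 ^ k := by
      rw [show (4 : ℕ) ^ (n / 3) = 2 ^ (2 * (n / 3)) by rw [pow_mul]; norm_num,
        show (4 : ℕ) ^ k = 2 ^ (2 * k) by rw [pow_mul]; norm_num, ← pow_add]
      exact Nat.pow_le_pow_right (by norm_num) (by omega)
    exact key _ _ _ h3 h2 hU'

end Cfsg.Agent.Perm1
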